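import Cfsg.Agent.Lib.ExtField.Top

/-!
# Extension field normalizers of composite degree are not maximal
-/

set_option autoImplicit false
set_option linter.unusedSectionVars false
set_option linter.style.haveILetI false
set_option linter.unusedVariables false

open Module Cfsg Cfsg.Geo Cfsg.Agent.Lib.ExtField.Basic Cfsg.Agent.Lib.ExtField.Top
  Cfsg.Agent.Lib.Geo.Basic
open scoped Matrix MatrixGroups

namespace Cfsg.Agent.Lib.ExtField.Comp

variable {F : Type*} [Field F] {n : ℕ}

/-- Elements of an intermediate field. -/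
theorem exists_fix [Fintype F] {K : Type*} [Field K] [Finite K] [Algebra F K] {r d : ℕ}
    (hr : finrank F K = r) (hd : d ∣ r) (hd1 : 1 < d) (hdr : d < r) :
    (∃ x : K, x ^ (Fintype.card F ^ d) = x ∧ x ∉ (⊥ : Subalgebra F K)) ∧
      ∃ y : K, y ^ (Fintype.card F ^ d) ≠ y := by
  classical
  set q := Fintype.card F with hq
  have hq2 : 2 ≤ q := Fintype.one_lt_card
  have hcardK : Nat.card K = q ^ r := by
    have := Module.natCard_eq_pow_finrank (K := F) (V := K)
    rw [hr, Nat.card_eq_fintype_card (α := F)] at this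
    exact this
  obtain ⟨γ, hγ⟩ := IsCyclic.exists_ofOrder_eq_natCard (α := Kˣ)
  have hγ' : orderOf γ = q ^ r - 1 := by
    rw [hγ, Nat.card_units, hcardK]
  have hQ1 : 1 < q ^ d := Nat.one_lt_pow (by omega) (by omega)
  have hlt : q ^ d < q ^ r := Nat.pow_lt_pow_right (by omega) hdr
  have hfix : ∀ z : Kˣ, z ^ (q ^ d - 1) = 1 → (z : K) ^ (q ^ d) = z := by
    intro z hz
    have h1 : q ^ d = (q ^ d - 1) + 1 := by omega
    have : (z : K) ^ (q ^ d - 1) = 1 := by
      rw [← Units.val_pow_eq_pow_val, hz, Units.val_one]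
    rw [h1, pow_succ, this, one_mul]
  constructor
  · obtain ⟨e, rfl⟩ := hd
    have hdvd : q ^ d - 1 ∣ q ^ (d * e) - 1 := by
      have := Nat.sub_dvd_pow_sub_pow (q ^ d) 1 e
      rwa [one_pow, ← pow_mul] at this
    obtain ⟨m, hm⟩ := hdvd
    refine ⟨((γ ^ m : Kˣ) : K), ?_, ?_⟩
    · apply hfix
      rw [← pow_mul, mul_comm, ← hm, ← hγ', pow_orderOf_eq_one]
    · intro hbot
      obtain ⟨f, hf⟩ := Algebra.mem_bot.mp hbot
      have hf0 : f ≠ 0 := by
        rintro rfl
        rw [map_zero] at hf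
        exact (γ ^ m).ne_zero hf.symm
      have h1 : f ^ (q - 1) = 1 := FiniteField.pow_card_sub_one_eq_one f hf0
      have h2 : (γ ^ m) ^ (q - 1) = 1 := by
        apply Units.ext
        rw [Units.val_pow_eq_pow_val, ← hf, ← map_pow, h1, map_one, Units.val_one]
      rw [← pow_mul] at h2
      have h3 := orderOf_dvd_of_pow_eq_one h2
      rw [hγ', hm] at h3
      have hm0 : m ≠ 0 := by
        rintro rfl
        have : q ^ (d * e) ≤ 1 := by omega
        omega
      have hm0' : 0 < m := Nat.pos_of_ne_zero hm0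
      rw [mul_comm] at h3
      have h4 := Nat.dvd_of_mul_dvd_mul_left hm0' h3
      have h5 := Nat.le_of_dvd (by omega) h4
      have h6 : q ^ 1 < q ^ d := Nat.pow_lt_pow_right (by omega) hd1
      simp only [pow_one] at h6
      omega
  · refine ⟨γ, fun hy => ?_⟩
    have h1 : γ ^ (q ^ d - 1) = 1 := by
      apply Units.ext
      have h2 : (γ : K) * (γ : K) ^ (q ^ d - 1) = γ := by
        rw [← pow_succ']
        have : q ^ d - 1 + 1 = q ^ d := by omega
        rw [this, hy]
      rw [Units.val_pow_eq_pow_val, Units.val_one]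
      exact mul_left_cancel₀ γ.ne_zero (by rw [h2, mul_one])
    have h2 := orderOf_dvd_of_pow_eq_one h1
    rw [hγ'] at h2
    have h3 := Nat.le_of_dvd (by omega) h2
    omega

theorem add_pow_Q [Fintype F] {K : Type*} [Field K] [Algebra F K] (d : ℕ) (a b : K) :
    (a + b) ^ (Fintype.card F ^ d) = a ^ (Fintype.card F ^ d) + b ^ (Fintype.card F ^ d) := by
  induction d with
  | zero => simp
  | succ d ih =>
    rw [pow_succ, pow_mul, ih, pow_mul, pow_mul]
    exact map_add (FiniteField.frobeniusAlgHom F K) _ _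

/-- The intermediate subalgebra. -/
def interm (K : Subalgebra F (Matrix (Fin n) (Fin n) F))
    (h : ∀ a b : K, a * b = b * a) (Q : ℕ) (hQ : ∀ f : F, f ^ Q = f)
    (hadd : ∀ a b : K, (a + b) ^ Q = a ^ Q + b ^ Q) :
    Subalgebra F (Matrix (Fin n) (Fin n) F) where
  carrier := {c | ∃ hc : c ∈ K, (⟨c, hc⟩ : K) ^ Q = ⟨c, hc⟩}
  mul_mem' := by
    rintro a b ⟨ha, ha'⟩ ⟨hb, hb'⟩
    refine ⟨K.mul_mem ha hb, ?_⟩
    have : (⟨a * b, K.mul_mem ha hb⟩ : K) = ⟨a, ha⟩ * ⟨b, hb⟩ := rfl
    rw [this, (show Commute (⟨a, ha⟩ : K) ⟨b, hb⟩ from h _ _).mul_pow, ha', hb']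
  add_mem' := by
    rintro a b ⟨ha, ha'⟩ ⟨hb, hb'⟩
    refine ⟨K.add_mem ha hb, ?_⟩
    have : (⟨a + b, K.add_mem ha hb⟩ : K) = ⟨a, ha⟩ + ⟨b, hb⟩ := rfl
    rw [this, hadd, ha', hb']
  algebraMap_mem' := by
    intro f
    refine ⟨K.algebraMap_mem f, ?_⟩
    have : (⟨algebraMap F _ f, K.algebraMap_mem f⟩ : K) = algebraMap F K f := rfl
    rw [this, ← map_pow, hQ]

theorem mem_interm {K : Subalgebra F (Matrix (Fin n) (Fin n) F)}
    {h : ∀ a b : K, a * b = b * a} {Q : ℕ} {hQ : ∀ f : F, f ^ Q = f}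
    {hadd : ∀ a b : K, (a + b) ^ Q = a ^ Q + b ^ Q} {c : Matrix (Fin n) (Fin n) F} :
    c ∈ interm K h Q hQ hadd ↔ ∃ hc : c ∈ K, (⟨c, hc⟩ : K) ^ Q = ⟨c, hc⟩ := Iff.rfl

/-- Final statement. -/
theorem final [Fintype F] (r : ℕ) (hr1 : 1 < r) (hrp : ¬ r.Prime) (hlt : r < n)
    (K : Subalgebra F (Matrix (Fin n) (Fin n) F)) (hK : IsFieldSubalgebra r K) :
    ¬ IsCoatom (subalgebraNormalizer K) ∧
      ¬ IsMaximalIn (specialLinear (Fin n) F)
        (subalgebraNormalizer K ⊓ specialLinear (Fin n) F) := by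
  classical
  have hn : 0 < n := by omega
  have hfield := isField_of_isFieldSubalgebra hn hK
  letI fK : Field K := hfield.toField
  have hcomm : ∀ a b : K, a * b = b * a := mul_comm
  have hfrK : finrank F K = r := hK.finrank_eq
  have hfinK : Finite K := Module.finite_of_finite F
  have hd : r.minFac ∣ r := Nat.minFac_dvd r
  have hdp : r.minFac.Prime := Nat.minFac_prime (by omega)
  have hdr : r.minFac < r :=
    lt_of_le_of_ne (Nat.le_of_dvd (by omega) hd) fun h => hrp (h ▸ hdp)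
  obtain ⟨⟨x, hxQ, hxbot⟩, y, hyQ⟩ := exists_fix (F := F) (K := K) hfrK hd hdp.one_lt hdr
  set Q := Fintype.card F ^ r.minFac with hQdef
  have hQ : ∀ f : F, f ^ Q = f := fun f => FiniteField.pow_card_pow _ f
  have hadd : ∀ a b : K, (a + b) ^ Q = a ^ Q + b ^ Q := fun a b => add_pow_Q _ a b
  let L := interm K hcomm Q hQ hadd
  have hLK : ∀ c ∈ L, c ∈ K := fun c hc => hc.1
  -- conjugation in the field
  have hconj : ∀ (A B : Matrix (Fin n) (Fin n) F), A * B = 1 → B * A = 1 →
      (∀ c ∈ K, A * c * B ∈ K) → ∀ c ∈ L, A * c * B ∈ L := by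
    intro A B hAB hBA hAK c hc
    refine ⟨hAK c hc.1, ?_⟩
    obtain ⟨hcK, hcQ⟩ := hc
    apply Subtype.ext
    have h1 : (A * c * B) ^ Q = A * c ^ Q * B := by
      have hg : ∀ m : ℕ, (A * c * B) ^ m = A * c ^ m * B := by
        intro m
        induction m with
        | zero => simp [hAB]
        | succ m ih =>
          rw [pow_succ, ih, pow_succ]
          calc A * c ^ m * B * (A * c * B) = A * c ^ m * (B * A) * c * B := by noncomm_ring
            _ = _ := by rw [hBA]; noncomm_ring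
      exact hg Q
    have h2 : c ^ Q = c := congrArg Subtype.val hcQ
    change (A * c * B) ^ Q = A * c * B
    rw [h1, h2]
  -- N(K) ≤ N(L)
  have hNN : subalgebraNormalizer K ≤ subalgebraNormalizer L := by
    intro g hg
    rw [mem_norm_iff] at hg ⊢
    exact ⟨hconj _ _ (by simp) (by simp) hg.1, hconj _ _ (by simp) (by simp) hg.2⟩
  -- vectors
  have hm : ∀ w : Fin n → F, ∃ z : Fin n → F, ∀ c ∈ K, z ≠ c *ᵥ w := by
    intro w
    by_contra hall
    push Not at hall
    let ι : K →ₗ[F] (Fin n → F) :=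
      { toFun := fun c => (c : Matrix (Fin n) (Fin n) F) *ᵥ w
        map_add' := fun a b => Matrix.add_mulVec _ _ _
        map_smul' := fun f a => Matrix.smul_mulVec _ _ _ }
    have hsurj : Function.Surjective ι := by
      intro z
      obtain ⟨c, hc, hz⟩ := hall z
      exact ⟨⟨c, hc⟩, hz.symm⟩
    have h1 := LinearMap.finrank_le_finrank_of_surjective hsurj
    simp only [finrank_fin_fun] at h1
    omega
  obtain ⟨u, hu⟩ := hm 0
  have hu0 : u ≠ 0 := by
    have := hu 0 K.zero_mem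
    simpa using this
  obtain ⟨w, hw⟩ := hm u
  have hinj : ∀ a ∈ K, a ≠ 0 → ∃ b ∈ K, b * a = 1 := by
    intro a ha ha0
    obtain ⟨b, hb, hab⟩ := hK.inv a ha ha0
    exact ⟨b, hb, by rw [hK.comm b hb a ha, hab]⟩
  have hinj' : ∀ a ∈ K, a *ᵥ u = 0 → a = 0 := by
    intro a ha hau
    by_contra ha0
    obtain ⟨b, hb, hba⟩ := hinj a ha ha0
    apply hu0
    have := congrArg (fun v => b *ᵥ v) hau
    simpa [Matrix.mulVec_mulVec, hba] using this
  -- the transvection
  obtain ⟨τ, hτSL, hτN⟩ : ∃ τ ∈ specialLinear (Fin n) F, τ ∉ subalgebraNormalizer L := by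
    have hx : (x : Matrix (Fin n) (Fin n) F) *ᵥ u ∉ Submodule.span F {u, w} := by
      intro hmem
      obtain ⟨a, b, hab⟩ := Submodule.mem_span_pair.mp hmem
      by_cases hb : b = 0
      · subst hb
        apply hxbot
        rw [Algebra.mem_bot]
        refine ⟨a, ?_⟩
        apply Subtype.ext
        rw [zero_smul, add_zero] at hab
        have h1 : (algebraMap F (Matrix (Fin n) (Fin n) F) a - x.1) *ᵥ u = 0 := by
          rw [Matrix.sub_mulVec, ← hab, Algebra.algebraMap_eq_smul_one, Matrix.smul_mulVec,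
            Matrix.one_mulVec, sub_self]
        exact sub_eq_zero.mp (hinj' _ (K.sub_mem (K.algebraMap_mem a) x.2) h1)
      · apply hw (b⁻¹ • (x.1 - algebraMap F _ a)) (K.smul_mem (K.sub_mem x.2 (K.algebraMap_mem a)) _)
        rw [Matrix.smul_mulVec, Matrix.sub_mulVec, ← hab, Algebra.algebraMap_eq_smul_one,
          Matrix.smul_mulVec, Matrix.one_mulVec]
        simp [smul_smul, hb]
    obtain ⟨ψ, hψ, hψ1⟩ := exists_functional hx
    have hψu : ψ u = 0 := hψ _ (Submodule.subset_span (by simp))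
    have hψw : ψ w = 0 := hψ _ (Submodule.subset_span (by simp))
    have hdot : vecF ψ ⬝ᵥ w = 0 := by rw [vecF_dot, hψw]
    refine ⟨transv w (vecF ψ) hdot, transv_mem_specialLinear _ _ _, fun hmem => ?_⟩
    rw [mem_norm_iff] at hmem
    have hc := hmem.1 x.1 ⟨x.2, hxQ⟩
    set τ := transv w (vecF ψ) hdot with hτ
    set c' := (τ : Matrix (Fin n) (Fin n) F) * x.1 * ((τ⁻¹ : GL (Fin n) F) : Matrix _ _ F) with hc'
    have h1 : (τ : Matrix (Fin n) (Fin n) F) * x.1 = c' * τ := by
      rw [hc', mul_assoc _ _ (τ : Matrix (Fin n) (Fin n) F)]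
      simp
    have h2 := congrArg (fun M : Matrix (Fin n) (Fin n) F => M *ᵥ u) h1
    simp only [← Matrix.mulVec_mulVec] at h2
    rw [hτ, transv_mulVec, transv_mulVec, vecF_dot, vecF_dot, hψ1, hψu, one_smul, zero_smul,
      add_zero] at h2
    apply hw (c' - x.1) (K.sub_mem (hLK _ hc) x.2)
    rw [Matrix.sub_mulVec, ← h2]
    abel
  -- L as a field
  have hLfield : IsFieldSubalgebra (finrank F L) L := by
    refine ⟨fun a ha b hb => hK.comm a ha.1 b hb.1, ?_, rfl⟩
    intro a ha ha0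
    obtain ⟨b, hb, hab⟩ := hK.inv a ha.1 ha0
    refine ⟨b, ⟨hb, ?_⟩, hab⟩
    obtain ⟨haK, haQ⟩ := ha
    have hab' : (⟨a, haK⟩ : K) * ⟨b, hb⟩ = 1 := Subtype.ext hab
    have h1 : (⟨a, haK⟩ : K) * (⟨b, hb⟩ : K) ^ Q = 1 := by
      have := congrArg (fun z : K => z ^ Q) hab'
      simp only [mul_pow, haQ, one_pow] at this
      exact this
    have h2 : (⟨a, haK⟩ : K) ≠ 0 := fun h => ha0 (congrArg Subtype.val h)
    exact mul_left_cancel₀ h2 (h1.trans hab'.symm)
  letI fL : Field L := (isField_of_isFieldSubalgebra hn hLfield).toField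
  letI mL : Module L (Fin n → F) :=
    { smul := fun c v => (c : Matrix (Fin n) (Fin n) F) *ᵥ v
      one_smul := fun v => Matrix.one_mulVec v
      mul_smul := fun a b v => (Matrix.mulVec_mulVec v _ _).symm
      smul_zero := fun a => Matrix.mulVec_zero _
      smul_add := fun a x y => Matrix.mulVec_add _ x y
      add_smul := fun a b v => Matrix.add_mulVec _ _ v
      zero_smul := fun v => Matrix.zero_mulVec v }
  have hsmul : ∀ (c : L) (v : Fin n → F), c • v = (c : Matrix (Fin n) (Fin n) F) *ᵥ v :=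
    fun c v => rfl
  haveI tL : IsScalarTower F L (Fin n → F) :=
    ⟨fun f c v => by
      rw [hsmul, hsmul]
      exact Matrix.smul_mulVec _ _ _⟩
  have hyL : y.1 ∉ L := by
    rintro ⟨_, h⟩
    exact hyQ h
  have hy : (y : Matrix (Fin n) (Fin n) F) *ᵥ u ∉ Submodule.span L {u, w} := by
    intro hmem
    obtain ⟨α, β, hab⟩ := Submodule.mem_span_pair.mp hmem
    rw [hsmul, hsmul] at hab
    by_cases hb : β = 0
    · subst hb
      apply hyL
      have h1 : (α.1 - y.1) *ᵥ u = 0 := by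
        rw [Matrix.sub_mulVec, ← hab]
        simp
      have h2 := sub_eq_zero.mp (hinj' _ (K.sub_mem (hLK _ α.2) y.2) h1)
      rw [← h2]
      exact α.2
    · have hb0 : β.1 ≠ 0 := fun h => hb (Subtype.ext h)
      obtain ⟨b₁, hb₁, hb₁β⟩ := hinj β.1 (hLK _ β.2) hb0
      apply hw (b₁ * (y.1 - α.1)) (K.mul_mem hb₁ (K.sub_mem y.2 (hLK _ α.2)))
      rw [← Matrix.mulVec_mulVec, Matrix.sub_mulVec, ← hab, add_sub_cancel_left,
        Matrix.mulVec_mulVec, hb₁β, Matrix.one_mulVec]
  obtain ⟨ψ, hψ, hψ1⟩ := exists_functional hy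
  have hψu : ψ u = 0 := hψ _ (Submodule.subset_span (by simp))
  have hψw : ψ w = 0 := hψ _ (Submodule.subset_span (by simp))
  let g₁ := uni (F := F) (kmap ψ w) (kmap_sq hψw)
  have hg₁ : ∀ v, g₁.1 v = v + ψ v • w := fun v => rfl
  let x₁ : GL (Fin n) F := eL.symm g₁
  have hx₁ : ∀ v, (x₁ : Matrix (Fin n) (Fin n) F) *ᵥ v = v + ψ v • w := by
    intro v
    rw [← eL_apply, MulEquiv.apply_symm_apply, hg₁]
  have hx₁SL : x₁ ∈ specialLinear (Fin n) F := by
    rw [mem_specialLinear_iff, ← det_eL, MulEquiv.apply_symm_apply]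
    exact det_uni _ _
  have hx₁L : x₁ ∈ subalgebraNormalizer L := by
    rw [mem_norm_iff]
    constructor
    · intro c hc
      have := exists_conj_of_semi (A := (x₁ : Matrix (Fin n) (Fin n) F))
        (B := ((x₁⁻¹ : GL (Fin n) F) : Matrix _ _ F)) (by simp) (by simp)
        (c := c) (c' := c) (fun v => by
          rw [hx₁, hx₁, Matrix.mulVec_add]
          have h1 : ψ (c *ᵥ v) = ⟨c, hc⟩ * ψ v := by
            have := LinearMap.map_smul ψ (⟨c, hc⟩ : L) v
            rwa [hsmul, smul_eq_mul] at this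
          rw [h1]
          congr 1
          rw [mul_smul]
          rfl)
      rw [this]
      exact hc
    · intro c hc
      have := exists_conj_of_semi (A := ((x₁⁻¹ : GL (Fin n) F) : Matrix _ _ F))
        (B := (x₁ : Matrix (Fin n) (Fin n) F)) (by simp) (by simp)
        (c := c) (c' := c) (fun v => by
          have h1 : ∀ z, ((x₁⁻¹ : GL (Fin n) F) : Matrix _ _ F) *ᵥ z = z - ψ z • w := by
            intro z
            rw [← eL_inv_apply, MulEquiv.apply_symm_apply]
            rfl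
          rw [h1, h1, Matrix.mulVec_sub]
          have h2 : ψ (c *ᵥ v) = ⟨c, hc⟩ * ψ v := by
            have := LinearMap.map_smul ψ (⟨c, hc⟩ : L) v
            rwa [hsmul, smul_eq_mul] at this
          rw [h2]
          congr 1
          rw [mul_smul]
          rfl)
      rw [this]
      exact hc
  have hx₁K : x₁ ∉ subalgebraNormalizer K := by
    intro hmem
    rw [mem_norm_iff] at hmem
    have hc := hmem.1 y.1 y.2
    set c' := (x₁ : Matrix (Fin n) (Fin n) F) * y.1 * ((x₁⁻¹ : GL (Fin n) F) : Matrix _ _ F) with hc'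
    have h1 : (x₁ : Matrix (Fin n) (Fin n) F) * y.1 = c' * x₁ := by
      rw [hc', mul_assoc _ _ (x₁ : Matrix (Fin n) (Fin n) F)]
      simp
    have h2 := congrArg (fun M : Matrix (Fin n) (Fin n) F => M *ᵥ u) h1
    simp only [← Matrix.mulVec_mulVec] at h2
    rw [hx₁, hx₁, hψ1, hψu, one_smul, zero_smul, add_zero] at h2
    apply hw (c' - y.1) (K.sub_mem hc y.2)
    rw [Matrix.sub_mulVec, ← h2]
    abel
  constructor
  · intro hco
    have hlt' : subalgebraNormalizer K < subalgebraNormalizer L :=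
      lt_of_le_of_ne hNN fun h => hx₁K (h ▸ hx₁L)
    have := hco.2 _ hlt'
    exact hτN (this ▸ Subgroup.mem_top τ)
  · refine not_isMaximalIn_of_lt_of_lt (M := subalgebraNormalizer L ⊓ specialLinear (Fin n) F) ?_ ?_
    · refine lt_of_le_of_ne (inf_le_inf_right _ hNN) fun h => ?_
      have : x₁ ∈ subalgebraNormalizer K ⊓ specialLinear (Fin n) F := by
        rw [h]
        exact ⟨hx₁L, hx₁SL⟩
      exact hx₁K this.1
    · refine lt_of_le_of_ne inf_le_right fun h => ?_
      have : τ ∈ subalgebraNormalizer L ⊓ specialLinear (Fin n) F := by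
        rw [h]
        exact hτSL
      exact hτN this.1

end Cfsg.Agent.Lib.ExtField.Comp
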